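import Mathlib
import Cfsg.Agent.Lib.Helper13.FumDefs

set_option autoImplicit false

namespace Cfsg.Agent.Lib.Helper58.Fum

open Cfsg.Agent.Lib.Helper13.Fum
open scoped Pointwise

theorem fixA_map_conj {V : Type*} [AddCommGroup V] (k : AAut V) (H : Subgroup (AAut V)) :
    fixA (H.map (MulAut.conj k).toMonoidHom) = k • fixA H := by
  ext v
  refine Iff.trans ?_ AddSubgroup.mem_pointwise_smul_iff_inv_smul_mem.symm
  rw [mem_fixA, mem_fixA]
  constructor
  · intro h x hx
    have h1 := h (k * x * k⁻¹) ⟨x, hx, rfl⟩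
    rw [mul_smul, mul_smul] at h1
    exact eq_inv_smul_iff.mpr h1
  · rintro h _ ⟨y, hy, rfl⟩
    show (k * y * k⁻¹) • v = v
    rw [mul_smul, mul_smul, h y hy, smul_inv_smul]

theorem map_conj_eq_self {V : Type*} [AddCommGroup V] {B H : Subgroup (AAut V)}
    (hBab : ∀ x ∈ B, ∀ y ∈ B, x * y = y * x)
    (hH : H ≤ B) {b : AAut V} (hb : b ∈ B) : H.map (MulAut.conj b).toMonoidHom = H := by
  have key : ∀ y ∈ H, b * y * b⁻¹ = y := fun y hy => by
    rw [hBab b hb y (hH hy), mul_inv_cancel_right]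
  ext x
  constructor
  · rintro ⟨y, hy, rfl⟩
    show b * y * b⁻¹ ∈ H
    rw [key y hy]; exact hy
  · intro hx
    exact ⟨x, hx, key x hx⟩

theorem sys_of_maxfix (p : ℕ) [Fact p.Prime] {V : Type*} [AddCommGroup V] [Finite V]
    [Nontrivial V] (hV : (Nat.card V).Coprime p) (K : Subgroup (AAut V)) (hirr : Irr K)
    (B : Subgroup (AAut V)) (_hBK : B ≤ K) (hBp : IsPGroup p B)
    (hBab : ∀ x ∈ B, ∀ y ∈ B, x * y = y * x)
    (L : Finset (Subgroup (AAut V))) (hL : L.Nonempty)
    (hL1 : ∀ H ∈ L, H ≤ B ∧ H ≠ ⊥ ∧ fixA H ≠ ⊥)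
    (hL2 : ∀ H ∈ L, ∀ H' ∈ L, H ≠ H' → fixA H ⊓ fixA H' = ⊥)
    (hL3 : ∀ k ∈ K, ∀ H ∈ L, H.map (MulAut.conj k).toMonoidHom ∈ L)
    (hL4 : (⨆ H ∈ L, fixA H) = ⊤) :
    Nonempty (Sys K) := by
  classical
  have hpg : ∀ H ∈ L, IsPGroup p H := fun H hH => hBp.to_le (hL1 H hH).1
  -- projection is the identity on fixed points
  have hself : ∀ H ∈ L, ∀ w ∈ fixA H, proj H w = w := fun H hH w hw =>
    proj_of_isPGroup hV (hpg H hH) hw
  -- (e)
  have hother : ∀ H ∈ L, ∀ H' ∈ L, H ≠ H' → ∀ w ∈ fixA H', proj H w = 0 := by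
    intro H hH H' hH' hne w hw
    have h1 : proj H w ∈ fixA H' := by
      intro h' hh'
      rw [smul_proj, map_conj_eq_self hBab (hL1 H hH).1 ((hL1 H' hH').1 hh'), hw h' hh']
    have h2 : proj H w ∈ fixA H ⊓ fixA H' := ⟨proj_mem_fixA H w, h1⟩
    rw [hL2 H hH H' hH' hne] at h2
    exact (AddSubgroup.mem_bot).1 h2
  -- (f)
  have hsum : ∀ v : V, ∑ H ∈ L, proj H v = v := by
    have h1 : (⨆ H ∈ L, fixA H) ≤
        AddMonoidHom.eqLocus (∑ H ∈ L, proj H) (AddMonoidHom.id V) := by
      refine iSup₂_le ?_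
      intro H hH w hw
      show (∑ H ∈ L, proj H) w = AddMonoidHom.id V w
      rw [AddMonoidHom.finsetSum_apply, AddMonoidHom.id_apply, Finset.sum_eq_single H]
      · exact hself H hH w hw
      · intro H' hH' hne
        exact hother H' hH' H hH hne w hw
      · intro h; exact absurd hH h
    rw [hL4] at h1
    intro v
    have h2 := h1 (AddSubgroup.mem_top v)
    have h3 : (∑ H ∈ L, proj H) v = AddMonoidHom.id V v := h2
    rwa [AddMonoidHom.finsetSum_apply, AddMonoidHom.id_apply] at h3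
  -- (h)
  have hinj : ∀ H ∈ L, ∀ H' ∈ L, fixA H = fixA H' → H = H' := by
    intro H hH H' hH' he
    by_contra hne
    have h1 := hL2 H hH H' hH' hne
    rw [← he, inf_idem] at h1
    exact (hL1 H hH).2.2 h1
  -- (g)
  have htrans : ∀ H1 ∈ L, ∀ H' ∈ L, ∃ k ∈ K, k • fixA H1 = fixA H' := by
    intro H1 hH1 H' hH'
    by_contra hcon
    set O : Finset (Subgroup (AAut V)) :=
      L.filter (fun H => ∃ k ∈ K, k • fixA H1 = fixA H) with hO
    have hH'O : H' ∉ O := by
      intro h
      exact hcon (Finset.mem_filter.1 h).2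
    have hH1O : H1 ∈ O := Finset.mem_filter.2 ⟨hH1, 1, K.one_mem, one_smul _ _⟩
    set W : AddSubgroup V := ⨆ H ∈ O, fixA H with hW
    have hWinv : ∀ k ∈ K, ∀ w ∈ W, k • w ∈ W := by
      intro k hk
      have h1 : W ≤ W.comap (DistribSMul.toAddMonoidHom V k) := by
        refine iSup₂_le ?_
        intro H hH w hw
        rw [AddSubgroup.mem_comap]
        show k • w ∈ W
        obtain ⟨hHL, k0, hk0, hk0e⟩ := Finset.mem_filter.1 hH
        have h2 : k • w ∈ fixA (H.map (MulAut.conj k).toMonoidHom) := by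
          rw [fixA_map_conj]
          exact AddSubgroup.smul_mem_pointwise_smul w k _ hw
        have h3 : H.map (MulAut.conj k).toMonoidHom ∈ O := by
          refine Finset.mem_filter.2 ⟨hL3 k hk H hHL, k * k0, K.mul_mem hk hk0, ?_⟩
          rw [fixA_map_conj, ← hk0e, mul_smul]
        exact (le_iSup₂ (f := fun H (_ : H ∈ O) => fixA H) _ h3) h2
      intro w hw
      exact h1 hw
    have hWne : W ≠ ⊥ := by
      intro h
      apply (hL1 H1 hH1).2.2
      have h1 : fixA H1 ≤ W := le_iSup₂ (f := fun H (_ : H ∈ O) => fixA H) H1 hH1O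
      rw [h] at h1
      exact le_bot_iff.1 h1
    have hWtop : W = ⊤ := (hirr W hWinv).resolve_left hWne
    have hker : W ≤ (proj H').ker := by
      refine iSup₂_le ?_
      intro H hH w hw
      rw [AddMonoidHom.mem_ker]
      have hne : H' ≠ H := fun e => hH'O (e ▸ hH)
      exact hother H' hH' H (Finset.mem_filter.1 hH).1 hne w hw
    rw [hWtop] at hker
    obtain ⟨w, hw, hw0⟩ : ∃ w ∈ fixA H', w ≠ 0 := by
      by_contra hno
      push Not at hno
      exact (hL1 H' hH').2.2 ((AddSubgroup.eq_bot_iff_forall _).2 hno)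
    have h1 : proj H' w = 0 := AddMonoidHom.mem_ker.1 (hker (AddSubgroup.mem_top w))
    rw [hself H' hH' w hw] at h1
    exact hw0 h1
  -- the projections indexed by blocks
  let π : AddSubgroup V → (V →+ V) := fun W =>
    if h : ∃ H ∈ L, fixA H = W then proj (Classical.choose h) else 0
  have hπ : ∀ H ∈ L, π (fixA H) = proj H := by
    intro H hH
    have hex : ∃ H' ∈ L, fixA H' = fixA H := ⟨H, hH, rfl⟩
    have h1 : π (fixA H) = proj (Classical.choose hex) := dif_pos hex
    rw [h1]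
    have h2 := Classical.choose_spec hex
    rw [hinj _ h2.1 H hH h2.2]
  have hsmul : ∀ k ∈ K, ∀ H ∈ L, k • fixA H = fixA (H.map (MulAut.conj k).toMonoidHom) :=
    fun k _ H _ => (fixA_map_conj k H).symm
  refine ⟨{ Λ := L.image fixA
            π := π
            nonempty := hL.image _
            ne_bot := ?_
            ne_top := ?_
            π_mem := ?_
            π_self := ?_
            π_other := ?_
            sum_π := ?_
            smul_mem := ?_
            π_smul := ?_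
            trans := ?_ }⟩
  · intro W hW
    obtain ⟨H, hH, rfl⟩ := Finset.mem_image.1 hW
    exact (hL1 H hH).2.2
  · intro W hW
    obtain ⟨H, hH, rfl⟩ := Finset.mem_image.1 hW
    intro htop
    apply (hL1 H hH).2.1
    rw [Subgroup.eq_bot_iff_forall]
    intro h hh
    apply FaithfulSMul.eq_of_smul_eq_smul (α := V)
    intro v
    rw [one_smul]
    have hv : v ∈ fixA H := by rw [htop]; exact AddSubgroup.mem_top v
    exact hv h hh
  · intro W hW v
    obtain ⟨H, hH, rfl⟩ := Finset.mem_image.1 hW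
    rw [hπ H hH]
    exact proj_mem_fixA H v
  · intro W hW w hw
    obtain ⟨H, hH, rfl⟩ := Finset.mem_image.1 hW
    rw [hπ H hH]
    exact hself H hH w hw
  · intro W hW W' hW' hne w hw
    obtain ⟨H, hH, rfl⟩ := Finset.mem_image.1 hW
    obtain ⟨H', hH', rfl⟩ := Finset.mem_image.1 hW'
    rw [hπ H hH]
    exact hother H hH H' hH' (fun e => hne (by rw [e])) w hw
  · intro v
    rw [Finset.sum_image (fun H hH H' hH' e => hinj H hH H' hH' e)]
    rw [Finset.sum_congr rfl (fun H hH => by rw [hπ H hH])]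
    exact hsum v
  · intro k hk W hW
    obtain ⟨H, hH, rfl⟩ := Finset.mem_image.1 hW
    rw [hsmul k hk H hH]
    exact Finset.mem_image_of_mem _ (hL3 k hk H hH)
  · intro k hk W hW v
    obtain ⟨H, hH, rfl⟩ := Finset.mem_image.1 hW
    rw [hπ H hH, hsmul k hk H hH, hπ _ (hL3 k hk H hH), smul_proj]
  · intro W hW W' hW'
    obtain ⟨H, hH, rfl⟩ := Finset.mem_image.1 hW
    obtain ⟨H', hH', rfl⟩ := Finset.mem_image.1 hW'
    exact htrans H hH H' hH'

end Cfsg.Agent.Lib.Helper58.Fum
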