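import Cfsg.Agent.Lib.Helper3.BG12Defs

/-!
# B&G Section 12, piece P14A (helper58): a subgroup of order `p` of a `p`-group of rank `≥ 2`
lies in an elementary abelian subgroup of order `p ^ 2`
-/

set_option autoImplicit false
set_option linter.unusedSectionVars false

open Cfsg Cfsg.Agent.Lib.Helper32 Cfsg.Agent.Lib.Helper32.BG10 Cfsg.Agent.Lib.Helper3.BG12

namespace Cfsg.Agent.Lib.Helper58.BG12

universe u

variable {G : Type u} [Group G] [Finite G]

/-- a subgroup of prime order is commutative -/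
theorem p14a_comm {p : ℕ} [Fact p.Prime] {X : Subgroup G} (hXc : Nat.card X = p) :
    ∀ a ∈ X, ∀ b ∈ X, a * b = b * a := by
  have hcyc : IsCyclic X := isCyclic_of_prime_card hXc
  obtain ⟨g, hg⟩ := IsCyclic.exists_generator (α := X)
  intro a ha b hb
  obtain ⟨i, hi⟩ := Subgroup.mem_zpowers_iff.mp (hg ⟨a, ha⟩)
  obtain ⟨j, hj⟩ := Subgroup.mem_zpowers_iff.mp (hg ⟨b, hb⟩)
  have h1 : (⟨a, ha⟩ : X) * ⟨b, hb⟩ = ⟨b, hb⟩ * ⟨a, ha⟩ := by
    rw [← hi, ← hj]
    exact (Commute.zpow_zpow_self g i j).eq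
  exact congrArg Subtype.val h1

/-- elements of a subgroup of order `p` have `p`-th power `1` -/
theorem p14a_pow {p : ℕ} {X : Subgroup G} (hXc : Nat.card X = p) :
    ∀ a ∈ X, a ^ p = 1 := by
  intro a ha
  have h1 : (⟨a, ha⟩ : X) ^ Nat.card X = 1 := pow_card_eq_one'
  rw [hXc] at h1
  exact congrArg Subtype.val h1

/-- AUX: adjoining a commuting element of order `p` outside `X` -/
theorem p14a_aux {p : ℕ} [Fact p.Prime] {R X : Subgroup G} (hXR : X ≤ R)
    (hXc : Nat.card X = p) {y : G} (hyR : y ∈ R) (hyp : y ^ p = 1) (hyX : y ∉ X)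
    (hcomm : ∀ x ∈ X, x * y = y * x) :
    ∃ A : Subgroup G, A ≤ R ∧ IsElementaryAbelian p A ∧ Nat.card A = p ^ 2 ∧ X ≤ A := by
  have hp : p.Prime := Fact.out
  have hy1 : y ≠ 1 := fun h => hyX (h ▸ X.one_mem)
  have hord : orderOf y = p := by
    have h1 : orderOf y ∣ p := orderOf_dvd_of_pow_eq_one hyp
    rcases (Nat.dvd_prime hp).mp h1 with h2 | h2
    · exact absurd (orderOf_eq_one_iff.mp h2) hy1
    · exact h2
  have hDc : Nat.card (Subgroup.zpowers y) = p := by rw [Nat.card_zpowers, hord]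
  have hXcomm := p14a_comm hXc
  have hXpow := p14a_pow (G := G) hXc
  have hDpow := p14a_pow (G := G) hDc
  have hDcomm := p14a_comm hDc
  -- elements of `X` commute with elements of `zpowers y`
  have hXD : ∀ x ∈ X, ∀ d ∈ Subgroup.zpowers y, Commute x d := by
    intro x hx d hd
    obtain ⟨i, rfl⟩ := Subgroup.mem_zpowers_iff.mp hd
    exact (show Commute x y from hcomm x hx).zpow_right i
  have comm : ∀ (m : X) (n : Subgroup.zpowers y),
      Commute (X.subtype m) ((Subgroup.zpowers y).subtype n) := fun m n => hXD m.1 m.2 n.1 n.2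
  have hdisj : X ⊓ Subgroup.zpowers y = ⊥ := by
    have h1 : Nat.card ↥(X ⊓ Subgroup.zpowers y) ∣ p := by
      rw [← hDc]
      exact Subgroup.card_dvd_of_le inf_le_right
    rcases (Nat.dvd_prime hp).mp h1 with h2 | h2
    · exact Subgroup.eq_bot_of_card_eq _ h2
    · exfalso
      have h3 : X ⊓ Subgroup.zpowers y = Subgroup.zpowers y :=
        Subgroup.eq_of_le_of_card_ge inf_le_right (by rw [h2, hDc])
      have h4 : Subgroup.zpowers y ≤ X := by
        rw [← h3]
        exact inf_le_left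
      exact hyX (h4 (Subgroup.mem_zpowers y))
  have hinj : Function.Injective
      (MonoidHom.noncommCoprod X.subtype (Subgroup.zpowers y).subtype comm) := by
    rw [MonoidHom.noncommCoprod_injective]
    refine ⟨X.subtype_injective, (Subgroup.zpowers y).subtype_injective, ?_⟩
    rw [Subgroup.range_subtype, Subgroup.range_subtype, disjoint_iff]
    exact hdisj
  refine ⟨(MonoidHom.noncommCoprod X.subtype (Subgroup.zpowers y).subtype comm).range,
    ?_, ⟨?_, ?_⟩, ?_, ?_⟩
  · rintro a ⟨u, rfl⟩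
    rw [MonoidHom.noncommCoprod_apply]
    exact R.mul_mem (hXR u.1.2) ((Subgroup.zpowers_le.mpr hyR) u.2.2)
  · refine ⟨⟨?_⟩⟩
    rintro ⟨a, u, rfl⟩ ⟨b, v, rfl⟩
    apply Subtype.ext
    show (MonoidHom.noncommCoprod X.subtype (Subgroup.zpowers y).subtype comm) u *
      (MonoidHom.noncommCoprod X.subtype (Subgroup.zpowers y).subtype comm) v =
      (MonoidHom.noncommCoprod X.subtype (Subgroup.zpowers y).subtype comm) v *
      (MonoidHom.noncommCoprod X.subtype (Subgroup.zpowers y).subtype comm) u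
    rw [MonoidHom.noncommCoprod_apply, MonoidHom.noncommCoprod_apply]
    have c1 : Commute (u.1 : G) (v.1 : G) := hXcomm _ u.1.2 _ v.1.2
    have c2 : Commute (u.2 : G) (v.2 : G) := hDcomm _ u.2.2 _ v.2.2
    have c3 : Commute (u.1 : G) (v.2 : G) := hXD _ u.1.2 _ v.2.2
    have c4 : Commute (u.2 : G) (v.1 : G) := (hXD _ v.1.2 _ u.2.2).symm
    exact ((c1.mul_left c4).mul_right (c3.mul_left c2)).eq
  · rintro a ⟨u, rfl⟩
    rw [MonoidHom.noncommCoprod_apply]
    have c3 : Commute (u.1 : G) (u.2 : G) := hXD _ u.1.2 _ u.2.2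
    show ((u.1 : G) * (u.2 : G)) ^ p = 1
    rw [c3.mul_pow, hXpow _ u.1.2, hDpow _ u.2.2, one_mul]
  · rw [← Nat.card_congr (MonoidHom.ofInjective hinj).toEquiv, Nat.card_prod, hXc, hDc, sq]
  · intro x hx
    refine ⟨(⟨x, hx⟩, 1), ?_⟩
    rw [MonoidHom.noncommCoprod_apply]
    simp

theorem exists_elemAb2_ge {p : ℕ} [Fact p.Prime] {R X : Subgroup G} (hR : IsPGroup p R)
    (hr : ¬ PRankLE p 1 ↥R) (hXR : X ≤ R) (hXc : Nat.card X = p) :
    ∃ A : Subgroup G, A ≤ R ∧ IsElementaryAbelian p A ∧ Nat.card A = p ^ 2 ∧ X ≤ A := by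
  have hp : p.Prime := Fact.out
  -- `R` is nontrivial
  have hRnt : Nontrivial R := by
    have h1 : 1 < Nat.card R := by
      have := Subgroup.card_le_of_le hXR
      rw [hXc] at this
      exact lt_of_lt_of_le hp.one_lt this
    exact Finite.one_lt_card_iff_nontrivial.mp h1
  have hZnt : Nontrivial (Subgroup.center R) := hR.center_nontrivial
  have hZdvd : p ∣ Nat.card (Subgroup.center R) := by
    have hZp : IsPGroup p (Subgroup.center R) := hR.to_subgroup _
    rcases hZp.card_eq_or_dvd with h1 | h1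
    · exact absurd h1 (ne_of_gt Finite.one_lt_card)
    · exact h1
  obtain ⟨z, hz⟩ := exists_prime_orderOf_dvd_card' p hZdvd
  -- `z` as an element of `G`
  have hzR : (z.1.1 : G) ∈ R := z.1.2
  have hzp : (z.1.1 : G) ^ p = 1 := by
    have h1 : z ^ p = 1 := by rw [← hz]; exact pow_orderOf_eq_one z
    have h2 := congrArg (fun w : Subgroup.center R => (w.1.1 : G)) h1
    simpa using h2
  have hz1 : (z.1.1 : G) ≠ 1 := by
    intro h
    have h1 : z = 1 := Subtype.ext (Subtype.ext h)
    rw [h1, orderOf_one] at hz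
    exact hp.one_lt.ne hz
  have hzc : ∀ r ∈ R, r * (z.1.1 : G) = (z.1.1 : G) * r := by
    intro r hr'
    have h1 := Subgroup.mem_center_iff.mp z.2 ⟨r, hr'⟩
    exact congrArg Subtype.val h1
  by_cases hzX : (z.1.1 : G) ∈ X
  · -- `X = zpowers z` is central in `R`
    have hordz : orderOf (z.1.1 : G) = p := by
      have h1 : orderOf (z.1.1 : G) ∣ p := orderOf_dvd_of_pow_eq_one hzp
      rcases (Nat.dvd_prime hp).mp h1 with h2 | h2
      · exact absurd (orderOf_eq_one_iff.mp h2) hz1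
      · exact h2
    have hXz : Subgroup.zpowers (z.1.1 : G) = X := by
      apply Subgroup.eq_of_le_of_card_ge (Subgroup.zpowers_le.mpr hzX)
      rw [Nat.card_zpowers, hordz, hXc]
    have hXcen : ∀ x ∈ X, ∀ r ∈ R, r * x = x * r := by
      intro x hx r hr'
      rw [← hXz] at hx
      obtain ⟨i, rfl⟩ := Subgroup.mem_zpowers_iff.mp hx
      exact ((show Commute r (z.1.1 : G) from hzc r hr').zpow_right i).eq
    obtain ⟨E, hER, hEc, hEp, hEcard⟩ := exists_of_not_prankLE hr
    have hex : ∃ e ∈ E, e ∉ X := by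
      by_contra hcon
      push Not at hcon
      have h1 : E ≤ X := hcon
      have h2 := Subgroup.card_le_of_le h1
      rw [hXc] at h2
      rw [pow_one] at hEcard
      omega
    obtain ⟨e, heE, heX⟩ := hex
    exact p14a_aux hXR hXc (hER heE) (hEp e heE) heX
      (fun x hx => (hXcen x hx e (hER heE)).symm)
  · exact p14a_aux hXR hXc hzR hzp hzX (fun x hx => hzc x (hXR hx))

end Cfsg.Agent.Lib.Helper58.BG12
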