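import Cfsg.Agent.Lib.Helper3.BG12Defs

/-!
# B&G Section 12, piece P16C (helper58): conjugating a complement
-/

set_option autoImplicit false
set_option linter.unusedSectionVars false

open Cfsg Cfsg.Agent.Lib.Helper32 Cfsg.Agent.Lib.Helper32.BG10 Cfsg.Agent.Lib.Helper3.BG12

namespace Cfsg.Agent.Lib.Helper58.BG12

universe u

variable {G : Type u} [Group G] [Finite G]

theorem isComplIn_cj {E N M : Subgroup G} (h : IsComplIn E N M)
    (hn : M ≤ Subgroup.normalizer (N : Set G)) {x : G} (hx : x ∈ M) : IsComplIn (cj x E) N M := by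
  obtain ⟨hEM, hNM, hEN, hprod⟩ := h
  have hxn : x ∈ Subgroup.normalizer (N : Set G) := hn hx
  have hxn' : x⁻¹ ∈ Subgroup.normalizer (N : Set G) := Subgroup.inv_mem _ hxn
  refine ⟨?_, hNM, ?_, ?_⟩
  · intro y hy
    rw [mem_cj] at hy
    have h1 : x⁻¹ * y * x ∈ M := hEM hy
    have h2 : y = x * (x⁻¹ * y * x) * x⁻¹ := by group
    rw [h2]
    exact M.mul_mem (M.mul_mem hx h1) (M.inv_mem hx)
  · rw [eq_bot_iff]
    intro y hy
    have hy1 : y ∈ cj x E := hy.1
    have hy2 : y ∈ N := hy.2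
    rw [mem_cj] at hy1
    have h2 : x⁻¹ * y * x ∈ N := by
      have := (Subgroup.mem_normalizer_iff.mp hxn' y).mp hy2
      rwa [inv_inv] at this
    have h3 : x⁻¹ * y * x ∈ E ⊓ N := ⟨hy1, h2⟩
    rw [hEN, Subgroup.mem_bot] at h3
    rw [Subgroup.mem_bot]
    have h4 : y = x * (x⁻¹ * y * x) * x⁻¹ := by group
    rw [h4, h3, mul_one, mul_inv_cancel]
  · intro m hm
    have h1 : x⁻¹ * m * x ∈ M := M.mul_mem (M.mul_mem (M.inv_mem hx) hm) hx
    obtain ⟨a, ha, b, hb, hab⟩ := hprod _ h1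
    refine ⟨x * a * x⁻¹, ?_, x * b * x⁻¹, ?_, ?_⟩
    · rw [mem_cj]
      have : x⁻¹ * (x * a * x⁻¹) * x = a := by group
      rw [this]
      exact ha
    · exact (Subgroup.mem_normalizer_iff.mp hxn b).mp hb
    · have h2 : m = x * (x⁻¹ * m * x) * x⁻¹ := by group
      rw [h2, hab]
      group

end Cfsg.Agent.Lib.Helper58.BG12
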