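import Cfsg.Agent.Lib.Helper3.BG12Defs

/-!
# B&G Section 12, piece P17Z (helper58): a subgroup meeting `N'` trivially with cyclic
prime-power subgroups is cyclic
-/

set_option autoImplicit false
set_option linter.unusedSectionVars false

open Cfsg Cfsg.Agent.Lib.Helper32 Cfsg.Agent.Lib.Helper32.BG10 Cfsg.Agent.Lib.Helper3.BG12
open scoped commutatorElement

namespace Cfsg.Agent.Lib.Helper58.BG12

universe u

variable {G : Type u} [Group G] [Finite G]

theorem cyclic_of_inf_der_eq_bot {D N : Subgroup G} (hDN : D ≤ N) (h : D ⊓ ⁅N, N⁆ = ⊥)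
    (hc : ∀ (q : ℕ) [Fact q.Prime] (X : Subgroup G), X ≤ D → IsPGroup q X → IsCyclic X) :
    IsCyclic D := by
  -- `D` is commutative
  have hcomm : ∀ a b : D, a * b = b * a := by
    intro a b
    have h1 : ⁅(a : G), (b : G)⁆ ∈ D ⊓ ⁅N, N⁆ := by
      refine ⟨?_, Subgroup.commutator_mem_commutator (hDN a.2) (hDN b.2)⟩
      rw [commutatorElement_def]
      exact D.mul_mem (D.mul_mem (D.mul_mem a.2 b.2) (D.inv_mem a.2)) (D.inv_mem b.2)
    rw [h, Subgroup.mem_bot, commutatorElement_eq_one_iff_mul_comm] at h1
    exact Subtype.ext h1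
  let _ : CommGroup D := { (inferInstance : Group D) with mul_comm := hcomm }
  have : Group.IsNilpotent D := CommGroup.isNilpotent
  have : IsZGroup D := by
    constructor
    intro q hq S
    have : Fact q.Prime := ⟨hq⟩
    have h1 : IsCyclic ((S : Subgroup D).map D.subtype) := by
      apply hc q
      · intro x hx
        obtain ⟨y, _, rfl⟩ := hx
        exact y.2
      · exact S.2.map D.subtype
    have e : (S : Subgroup D) ≃* ((S : Subgroup D).map D.subtype) :=
      (S : Subgroup D).equivMapOfInjective D.subtype D.subtype_injective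
    exact isCyclic_of_surjective e.symm.toMonoidHom e.symm.surjective
  infer_instance

end Cfsg.Agent.Lib.Helper58.BG12
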