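import Mathlib
import Cfsg.Agent.Lib.Helper52.OutDefs
import Cfsg.Agent.Lib.Helper54.OrthAut

set_option autoImplicit false

namespace Cfsg.Agent.Lib.Helper58.OUU1

open Cfsg.Agent.Lib.Helper52.OU Cfsg.Agent.Lib.Helper54 Matrix

variable {ι : Type} [Fintype ι] [DecidableEq ι] {F : Type*} [Field F]

local notation "mt(" g ")" => ((g : Matrix.GeneralLinearGroup ι F) : Matrix ι ι F)

/-- entrywise `σ` commutes with `mulVec`. -/
theorem map_mulVec_sigma (σ : F ≃+* F) (M : Matrix ι ι F) (v : ι → F) :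
    (M.map σ) *ᵥ (fun i => σ (v i)) = fun i => σ ((M *ᵥ v) i) := by
  funext i
  exact (RingHom.map_mulVec (σ : F →+* F) M v i).symm

theorem coe_map_sigma (σ : F ≃+* F) (g : GL ι F) :
    mt(Matrix.GeneralLinearGroup.map (σ : F →+* F) g) = (mt(g)).map σ := rfl

/-- The conjugate `g σ(s) g⁻¹` of an isometry is an isometry. -/
theorem semi_conj_isometry (Q : (ι → F) → F) (g : GL ι F) (σ : F ≃+* F)
    (h : Cfsg.IsSemisimilarityPair Q g σ) (s : GL ι F) (hs : s ∈ Cfsg.isometryGroup F Q) :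
    g * Matrix.GeneralLinearGroup.map (σ : F →+* F) s * g⁻¹ ∈ Cfsg.isometryGroup F Q := by
  obtain ⟨c, hc⟩ := h
  rw [mem_isometryGroup_iff'] at hs ⊢
  intro w
  -- v := σ⁻¹ (g⁻¹ w)
  set v : ι → F := fun i => σ.symm ((mt(g⁻¹) *ᵥ w) i) with hv
  have hσv : (fun i => σ (v i)) = mt(g⁻¹) *ᵥ w := by
    funext i; simp [hv]
  have hw : mt(g) *ᵥ (fun i => σ (v i)) = w := by
    rw [hσv, Matrix.mulVec_mulVec, ← Units.val_mul, mul_inv_cancel, Units.val_one,
      Matrix.one_mulVec]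
  have e1 : mt(g * Matrix.GeneralLinearGroup.map (σ : F →+* F) s * g⁻¹) *ᵥ w
      = mt(g) *ᵥ (fun i => σ ((mt(s) *ᵥ v) i)) := by
    rw [Units.val_mul, Units.val_mul, ← Matrix.mulVec_mulVec, ← Matrix.mulVec_mulVec, ← hσv,
      coe_map_sigma, map_mulVec_sigma]
  rw [e1, hc, hs, ← hc, hw]

/-- The endomorphism `s ↦ g σ(s) g⁻¹` of the isometry group. -/
noncomputable def conjHom (Q : (ι → F) → F) (g : GL ι F) (σ : F ≃+* F)
    (h : Cfsg.IsSemisimilarityPair Q g σ) :
    ↥(Cfsg.isometryGroup F Q) →* ↥(Cfsg.isometryGroup F Q) where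
  toFun s := ⟨g * Matrix.GeneralLinearGroup.map (σ : F →+* F) (s : GL ι F) * g⁻¹,
    semi_conj_isometry Q g σ h s s.2⟩
  map_one' := by
    apply Subtype.ext
    simp
  map_mul' s t := by
    apply Subtype.ext
    simp only [Subgroup.coe_mul, map_mul]
    group

theorem semi_conj_mem (Q : (ι → F) → F) (g : GL ι F) (σ : F ≃+* F)
    (h : Cfsg.IsSemisimilarityPair Q g σ) (s : ↥(Cfsg.Omega F Q)) :
    ∃ s' : ↥(Cfsg.Omega F Q), mt((s' : ↥(Cfsg.isometryGroup F Q)))
      = mt(g) * (mt((s : ↥(Cfsg.isometryGroup F Q)))).map σ * mt(g⁻¹) := by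
  have hmem : conjHom Q g σ h (s : ↥(Cfsg.isometryGroup F Q)) ∈ Cfsg.Omega F Q := by
    have h1 : (Cfsg.Omega F Q).map (conjHom Q g σ h) ≤ Cfsg.Omega F Q := by
      change (commutator ↥(Cfsg.isometryGroup F Q)).map (conjHom Q g σ h)
        ≤ commutator ↥(Cfsg.isometryGroup F Q)
      rw [commutator_def, Subgroup.map_commutator]
      exact Subgroup.commutator_mono le_top le_top
    exact h1 (Subgroup.mem_map_of_mem _ s.2)
  refine ⟨⟨conjHom Q g σ h (s : ↥(Cfsg.isometryGroup F Q)), hmem⟩, ?_⟩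
  change mt(g * Matrix.GeneralLinearGroup.map (σ : F →+* F)
    ((s : ↥(Cfsg.isometryGroup F Q)) : GL ι F) * g⁻¹) = _
  rw [Units.val_mul, Units.val_mul, coe_map_sigma]

theorem ind_one (Q : (ι → F) → F) : Ind Q 1 1 (RingEquiv.refl F) := by
  refine ⟨⟨1, fun v => ?_⟩, ?_⟩
  · simp
  · intro s s' hss
    have : s' = s := by
      apply Subtype.ext
      apply Subtype.ext
      apply Units.ext
      rw [hss]
      simp
    rw [this]
    rfl

theorem ind_mul (Q : (ι → F) → F) {β β' : MulAut (Cfsg.POmega F Q)} {g g' : GL ι F}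
    {σ σ' : F ≃+* F} (h : Ind Q β g σ) (h' : Ind Q β' g' σ') :
    Ind Q (β * β') (g * Matrix.GeneralLinearGroup.map (σ : F →+* F) g') (σ'.trans σ) := by
  obtain ⟨⟨c, hc⟩, hβ⟩ := h
  obtain ⟨⟨c', hc'⟩, hβ'⟩ := h'
  refine ⟨⟨c * Units.map (σ : F →* F) c', fun v => ?_⟩, ?_⟩
  · have e1 : mt(g * Matrix.GeneralLinearGroup.map (σ : F →+* F) g') *ᵥ
        (fun i => (σ'.trans σ) (v i))
        = mt(g) *ᵥ (fun i => σ ((mt(g') *ᵥ (fun j => σ' (v j))) i)) := by
      rw [Units.val_mul, ← Matrix.mulVec_mulVec, coe_map_sigma, ← map_mulVec_sigma]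
      rfl
    rw [e1, hc, hc']
    simp [mul_assoc]
  · intro s s'' hss
    obtain ⟨s', hs'⟩ := semi_conj_mem Q g' σ' ⟨c', hc'⟩ s
    have h1 : β' (QuotientGroup.mk s) = QuotientGroup.mk s' := hβ' s s' hs'
    have h2 : β (QuotientGroup.mk s') = QuotientGroup.mk s'' := by
      apply hβ s' s''
      rw [hss, hs']
      have e2 : mt((g * Matrix.GeneralLinearGroup.map (σ : F →+* F) g')⁻¹)
          = (mt(g'⁻¹)).map σ * mt(g⁻¹) := by
        rw [_root_.mul_inv_rev, Units.val_mul, ← Matrix.GeneralLinearGroup.map_inv, coe_map_sigma]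
      rw [e2, Units.val_mul, coe_map_sigma]
      have e3 : (mt(g') * (mt((s : ↥(Cfsg.isometryGroup F Q)))).map σ' * mt(g'⁻¹)).map σ
          = (mt(g')).map σ * (mt((s : ↥(Cfsg.isometryGroup F Q)))).map (σ'.trans σ)
            * (mt(g'⁻¹)).map σ := by
        rw [Matrix.map_mul, Matrix.map_mul, Matrix.map_map]
        rfl
      rw [e3]
      simp only [mul_assoc]
    change β (β' (QuotientGroup.mk s)) = _
    rw [h1, h2]

theorem ind_inv (Q : (ι → F) → F) {β : MulAut (Cfsg.POmega F Q)} {g : GL ι F}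
    {σ : F ≃+* F} (h : Ind Q β g σ) :
    Ind Q β⁻¹ (Matrix.GeneralLinearGroup.map (σ.symm : F →+* F) g⁻¹) σ.symm := by
  obtain ⟨⟨c, hc⟩, hβ⟩ := h
  refine ⟨⟨Units.map (σ.symm : F →* F) c⁻¹, fun v => ?_⟩, ?_⟩
  · set u : ι → F := mt(Matrix.GeneralLinearGroup.map (σ.symm : F →+* F) g⁻¹) *ᵥ
      (fun i => σ.symm (v i)) with hu
    have hu' : u = fun i => σ.symm ((mt(g⁻¹) *ᵥ v) i) := by
      rw [hu, coe_map_sigma, map_mulVec_sigma]
    have hσu : (fun i => σ (u i)) = mt(g⁻¹) *ᵥ v := by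
      rw [hu']; funext i; simp
    have hgu : mt(g) *ᵥ (fun i => σ (u i)) = v := by
      rw [hσu, Matrix.mulVec_mulVec, ← Units.val_mul, mul_inv_cancel, Units.val_one,
        Matrix.one_mulVec]
    have h1 := hc u
    rw [hgu] at h1
    -- Q v = c * σ (Q u)
    have h2 : Q u = σ.symm ((c⁻¹ : Fˣ) * Q v) := by
      rw [h1, ← mul_assoc, ← Units.val_mul, inv_mul_cancel, Units.val_one, one_mul,
        RingEquiv.symm_apply_apply]
    rw [h2, map_mul]
    rfl
  · intro s s' hss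
    have h1 : β (QuotientGroup.mk s') = QuotientGroup.mk s := by
      apply hβ s' s
      rw [hss]
      have e1 : mt((Matrix.GeneralLinearGroup.map (σ.symm : F →+* F) g⁻¹)⁻¹)
          = (mt(g)).map σ.symm := by
        rw [← Matrix.GeneralLinearGroup.map_inv, inv_inv, coe_map_sigma]
      rw [e1, coe_map_sigma, Matrix.map_mul, Matrix.map_mul, Matrix.map_map, Matrix.map_map,
        Matrix.map_map]
      have e2 : ∀ M : Matrix ι ι F, M.map ((σ : F → F) ∘ (σ.symm : F → F)) = M := by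
        intro M
        ext i j
        simp
      rw [e2, e2, e2]
      have e3 : mt(g) * mt(g⁻¹) = 1 := by
        rw [← Units.val_mul, mul_inv_cancel, Units.val_one]
      calc mt((s : ↥(Cfsg.isometryGroup F Q)))
          = (mt(g) * mt(g⁻¹)) * mt((s : ↥(Cfsg.isometryGroup F Q))) * (mt(g) * mt(g⁻¹)) := by
            rw [e3, one_mul, mul_one]
        _ = _ := by simp only [mul_assoc]
    rw [← h1]
    simp

theorem ind_pow (Q : (ι → F) → F) {β : MulAut (Cfsg.POmega F Q)} {g : GL ι F}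
    {σ : F ≃+* F} (h : Ind Q β g σ) (k : ℕ) :
    Ind Q (β ^ k) (tpow g σ k) ((σ : RingAut F) ^ k) := by
  induction k with
  | zero =>
    rw [pow_zero, pow_zero]
    exact ind_one Q
  | succ k ih =>
    rw [pow_succ', pow_succ', tpow_succ]
    exact ind_mul Q h ih

end Cfsg.Agent.Lib.Helper58.OUU1
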