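import Cfsg.Agent.Lib.Helper3.BG12Pieces

/-!
Piece BG12-Q18D (B&G 12.6): `A = Ω₁(P)` for a Sylow `p`-subgroup `P` of `M` with
`N_G(P) ⊄ M` gives `N_G(A) ⊄ M`.
-/

set_option autoImplicit false

open Cfsg Cfsg.Agent.Lib.Helper32 Cfsg.Agent.Lib.Helper32.BG10 Cfsg.Agent.Lib.Helper3.BG12 Cfsg.Agent.Lib.Helper3.BG12S

namespace Cfsg.Agent.Lib.Helper58.BG12

universe u

variable {G : Type u} [Group G] [Finite G]

theorem not_normalizer_le_of_omega {p : ℕ} [Fact p.Prime] {M A : Subgroup G} (hAM : A ≤ M)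
    (hAp : IsPGroup p A)
    (hom : ∀ P : Sylow p M, A ≤ (P : Subgroup M).map M.subtype →
      (∀ x ∈ (P : Subgroup M).map M.subtype, x ^ p = 1 ↔ x ∈ A) ∧
      ¬ Subgroup.normalizer ((((P : Subgroup M).map M.subtype : Subgroup G)) : Set G) ≤ M) :
    ¬ Subgroup.normalizer (A : Set G) ≤ M := by
  have hAM' : IsPGroup p (A.subgroupOf M) := hAp.comap_subtype
  obtain ⟨P, hP⟩ := hAM'.exists_le_sylow
  have hAP : A ≤ (P : Subgroup M).map M.subtype := by
    intro a ha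
    exact ⟨⟨a, hAM ha⟩, hP (Subgroup.mem_subgroupOf.mpr ha), rfl⟩
  obtain ⟨h1, h2⟩ := hom P hAP
  intro hN
  apply h2
  refine le_trans ?_ hN
  have key : ∀ g : G, (∀ h, h ∈ (P : Subgroup M).map M.subtype ↔
      g * h * g⁻¹ ∈ (P : Subgroup M).map M.subtype) → ∀ a ∈ A, g * a * g⁻¹ ∈ A := by
    intro g hg a ha
    rw [← h1 _ ((hg a).mp (hAP ha))]
    rw [conj_pow, (h1 a (hAP ha)).mpr ha]
    group
  intro g hg
  rw [Subgroup.mem_normalizer_iff] at hg ⊢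
  intro a
  constructor
  · exact key g hg a
  · intro ha
    have h3 := key g⁻¹ (fun h => by
      rw [hg (g⁻¹ * h * g⁻¹⁻¹)]
      simp [mul_assoc]) _ ha
    simpa [mul_assoc] using h3

end Cfsg.Agent.Lib.Helper58.BG12
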