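import Cfsg.Agent.Lib.Helper3.BG12Pieces

/-!
Piece BG12-Q20A (B&G 12.10): a nilpotent subgroup all of whose `p`-subgroups are commutative is
commutative.
-/

set_option autoImplicit false

open Cfsg Cfsg.Agent.Lib.Helper32 Cfsg.Agent.Lib.Helper32.BG10 Cfsg.Agent.Lib.Helper3.BG12 Cfsg.Agent.Lib.Helper3.BG12S

namespace Cfsg.Agent.Lib.Helper58.BG12

universe u

variable {G : Type u} [Group G] [Finite G]

theorem isMulCommutative_of_nilpotent {N : Subgroup G} (hN : Group.IsNilpotent ↥N)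
    (h : ∀ (r : ℕ) [Fact r.Prime] (R : Subgroup G), R ≤ N → IsPGroup r R → r ∣ Nat.card N →
      IsMulCommutative ↥R) :
    IsMulCommutative ↥N := by
  obtain ⟨e⟩ := ((Group.isNilpotent_of_finite_tfae (G := ↥N)).out 0 4 rfl rfl).mp hN
  refine ⟨⟨fun x y => ?_⟩⟩
  obtain ⟨x', rfl⟩ := e.surjective x
  obtain ⟨y', rfl⟩ := e.surjective y
  rw [← map_mul, ← map_mul]
  congr 1
  funext p P
  have hp : Fact (p : ℕ).Prime := ⟨Nat.prime_of_mem_primeFactors p.2⟩
  have hdvd : (p : ℕ) ∣ Nat.card N := Nat.dvd_of_mem_primeFactors p.2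
  have hR := h (p : ℕ) ((P : Subgroup N).map N.subtype) (Subgroup.map_subtype_le _)
    (P.isPGroup'.map _) hdvd
  apply Subtype.ext
  apply Subtype.ext
  have h1 := hR.is_comm.comm ⟨((x' p P : N) : G), ⟨_, (x' p P).2, rfl⟩⟩
    ⟨((y' p P : N) : G), ⟨_, (y' p P).2, rfl⟩⟩
  have h2 := congrArg Subtype.val h1
  simpa using h2

end Cfsg.Agent.Lib.Helper58.BG12
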