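import Mathlib
import Cfsg.Agent.Lib.Helper4.FCDefs

/-!
# Project FC (S4146), piece S33B

`D = (P R) × A` with `A` central: a noncentral `p`-element `w` (`p ≠ q`) forces `p = r`, and then
`cs w` divides `|D : A| = |P R| = q^x p^y`.
-/

namespace Cfsg.Agent.Lib.Helper4.FC

universe u

theorem s33b_helper58_index {D : Type u} [Group D] [Finite D] (N A : Subgroup D)
    (hA : A ≤ Subgroup.center D) (hNA : N ⊓ A = ⊥) (hNAtop : N ⊔ A = ⊤) :
    A.index = Nat.card N := by
  have : A.Normal := by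
    refine ⟨fun a ha g => ?_⟩
    have hc := Subgroup.mem_center_iff.mp (hA ha) g
    have : g * a * g⁻¹ = a := by rw [hc, mul_inv_cancel_right]
    rw [this]; exact ha
  have h1 : A.relIndex (N ⊔ A) = A.relIndex N := Subgroup.relIndex_sup_right N A
  rw [hNAtop, Subgroup.relIndex_top_right] at h1
  rw [h1, ← Subgroup.inf_relIndex_right, inf_comm, hNA, Subgroup.relIndex_bot_left]

theorem s33b_helper58_central {D : Type u} [Group D] [Finite D] (N A : Subgroup D) [N.Normal]
    (hA : A ≤ Subgroup.center D) (hNAtop : N ⊔ A = ⊤) (w : D)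
    (hcop : (Nat.card N).Coprime (orderOf w)) : w ∈ Subgroup.center D := by
  by_cases hw1 : w = 1
  · rw [hw1]; exact Subgroup.one_mem _
  have hwtop : w ∈ ((N ⊔ A : Subgroup D) : Set D) := by
    rw [hNAtop]; exact Subgroup.mem_top w
  rw [Subgroup.normal_mul] at hwtop
  obtain ⟨n, hn, a, ha, hna⟩ := Set.mem_mul.mp hwtop
  have hac : a ∈ Subgroup.center D := hA ha
  have hcomm : Commute n a := Subgroup.mem_center_iff.mp hac n
  have hn1 : n ^ Nat.card N = 1 := by
    have := pow_card_eq_one' (G := N) (x := ⟨n, hn⟩)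
    exact congrArg Subtype.val this
  have hpow : w ^ Nat.card N ∈ Subgroup.center D := by
    rw [← hna, hcomm.mul_pow, hn1, one_mul]
    exact pow_mem hac _
  obtain ⟨m, hm⟩ := exists_pow_eq_self_of_coprime hcop
  have : w = (w ^ Nat.card N) ^ m := hm.symm
  rw [this]
  exact pow_mem hpow _

theorem fc_s33b : S33BStmt.{u} := by
  intro D _ _ q p r P R A hq hp hr hpq hrq hA hcard hN hNA hNAtop w hw hwc
  have := hN
  have := Fact.mk hq
  have := Fact.mk hr
  obtain ⟨α, hα⟩ := IsPGroup.iff_card.mp P.isPGroup'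
  obtain ⟨β, hβ⟩ := IsPGroup.iff_card.mp R.isPGroup'
  obtain ⟨k, hk⟩ := hw
  have hp_eq : p = r := by
    by_contra hpr
    apply hwc
    refine s33b_helper58_central _ A hA hNAtop w ?_
    rw [hcard, hα, hβ, hk]
    have h1 : Nat.Coprime q p := (Nat.coprime_primes hq hp).mpr (Ne.symm hpq)
    have h2 : Nat.Coprime r p := (Nat.coprime_primes hr hp).mpr (Ne.symm hpr)
    exact Nat.Coprime.mul_left (Nat.Coprime.pow _ _ h1) (Nat.Coprime.pow _ _ h2)
  subst hp_eq
  refine ⟨α, β, ?_⟩
  have hidx : A.index = q ^ α * p ^ β := by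
    rw [s33b_helper58_index _ A hA hNA hNAtop, hcard, hα, hβ]
  rw [← hidx]
  refine Subgroup.index_dvd_of_le ?_
  intro a ha
  exact Subgroup.center_le_centralizer _ (hA ha)

end Cfsg.Agent.Lib.Helper4.FC
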