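import Mathlib
import Cfsg.Prelude.Def_Blocks
import Cfsg.Prelude.Def_Local
import Cfsg.Agent.S0999
import Cfsg.Agent.Lib.Helper6.PSLCard

/-!
Piece C8 of S4501: a nonabelian simple group of order `3p(p-1)` or `3p(p+1)` (`p ≥ 5` prime)
has order 60 or 168 (via Brauer–Reynolds, S0999).
-/

set_option autoImplicit false
open Cfsg
open scoped ComplexConjugate

namespace Cfsg.Agent.Lib.Helper30.S4501.C8

theorem psl_card_odd {F : Type} [Field F] [Fintype F] (t : ℕ) (ht : 0 < t) (hev : 2 ∣ t)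
    (hF : Fintype.card F = t + 1) :
    2 * Nat.card (Matrix.ProjectiveSpecialLinearGroup (Fin 2) F) = (t + 2) * (t + 1) * t := by
  have h := Cfsg.Agent.Lib.Helper6.card_psl hF 2 (by norm_num)
  rw [Fin.prod_univ_two, Nat.add_sub_cancel, Nat.gcd_eq_left hev] at h
  have e0 : (t + 1) ^ 2 - (t + 1) ^ ((0 : Fin 2) : ℕ) = t * (t + 2) := by
    apply Nat.sub_eq_of_eq_add
    simp only [Fin.val_zero, pow_zero]
    ring
  have e1 : (t + 1) ^ 2 - (t + 1) ^ ((1 : Fin 2) : ℕ) = (t + 1) * t := by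
    apply Nat.sub_eq_of_eq_add
    simp only [Fin.val_one, pow_one]
    ring
  rw [e0, e1] at h
  have h' : (t * t) * (2 * Nat.card (Matrix.ProjectiveSpecialLinearGroup (Fin 2) F))
      = (t * t) * ((t + 2) * (t + 1) * t) := by
    have : t * (2 * (t * Nat.card (Matrix.ProjectiveSpecialLinearGroup (Fin 2) F)))
        = t * (t * (t + 2) * ((t + 1) * t)) := by rw [h]
    calc (t * t) * (2 * Nat.card (Matrix.ProjectiveSpecialLinearGroup (Fin 2) F))
        = t * (2 * (t * Nat.card (Matrix.ProjectiveSpecialLinearGroup (Fin 2) F))) := by ring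
      _ = t * (t * (t + 2) * ((t + 1) * t)) := this
      _ = (t * t) * ((t + 2) * (t + 1) * t) := by ring
  exact Nat.eq_of_mul_eq_mul_left (Nat.mul_pos ht ht) h'

theorem psl_card_even {F : Type} [Field F] [Fintype F] (s : ℕ) (hs : 0 < s) (hodd : Odd s)
    (hF : Fintype.card F = s + 1) :
    Nat.card (Matrix.ProjectiveSpecialLinearGroup (Fin 2) F) = (s + 2) * (s + 1) * s := by
  have h := Cfsg.Agent.Lib.Helper6.card_psl hF 2 (by norm_num)
  have hg : Nat.gcd 2 s = 1 := Nat.coprime_two_left.mpr hodd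
  rw [Fin.prod_univ_two, Nat.add_sub_cancel, hg, one_mul] at h
  have e0 : (s + 1) ^ 2 - (s + 1) ^ ((0 : Fin 2) : ℕ) = s * (s + 2) := by
    apply Nat.sub_eq_of_eq_add
    simp only [Fin.val_zero, pow_zero]
    ring
  have e1 : (s + 1) ^ 2 - (s + 1) ^ ((1 : Fin 2) : ℕ) = (s + 1) * s := by
    apply Nat.sub_eq_of_eq_add
    simp only [Fin.val_one, pow_one]
    ring
  rw [e0, e1] at h
  have h' : s * Nat.card (Matrix.ProjectiveSpecialLinearGroup (Fin 2) F)
      = s * ((s + 2) * (s + 1) * s) := by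
    rw [h]; ring
  exact Nat.eq_of_mul_eq_mul_left hs h'

theorem small_order {G : Type*} [Group G] [Finite G] [IsSimpleGroup G]
    (hna : ∃ x y : G, x * y ≠ y * x) (p : ℕ) (hp : p.Prime) (hp5 : 5 ≤ p)
    (h : Nat.card G = 3 * p * (p - 1) ∨ Nat.card G = 3 * p * (p + 1)) :
    Nat.card G = 60 ∨ Nat.card G = 168 := by
  have hnc : ¬ IsCyclic G := by
    intro hc
    obtain ⟨x, y, hxy⟩ := hna
    exact hxy ((IsCyclic.isMulCommutative (α := G)).is_comm.comm x y)
  obtain ⟨t, rfl⟩ : ∃ t, p = t + 1 := ⟨p - 1, by omega⟩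
  have ht4 : 4 ≤ t := by omega
  rw [Nat.add_sub_cancel] at h
  have hdvd : (t + 1) ∣ Nat.card G := by
    rcases h with h | h
    · rw [h]; exact ⟨3 * t, by ring⟩
    · rw [h]; exact ⟨3 * (t + 1 + 1), by ring⟩
  have hbig : Nat.card G < (t + 1) ^ 3 := by
    rcases h with h | h
    · rw [h]; nlinarith [Nat.mul_le_mul ht4 ht4]
    · rw [h]; nlinarith [Nat.mul_le_mul ht4 ht4]
  have hodd : Odd (t + 1) := hp.odd_of_ne_two (by omega)
  have hev : 2 ∣ t := by
    rcases hodd with ⟨k, hk⟩
    exact ⟨k, by omega⟩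
  rcases Cfsg.Agent.S0999.result hnc (t + 1) hp hdvd hbig with
    ⟨F, _, _, hF, _, ⟨e⟩⟩ | ⟨m, F, _, _, hF, hpm, _, ⟨e⟩⟩
  · have hc := psl_card_odd t (by omega) hev hF
    rw [← Nat.card_congr e.toEquiv] at hc
    rcases h with h | h
    · rw [h] at hc
      have h6 : ((t + 1) * t) * 6 = ((t + 1) * t) * (t + 2) := by nlinarith
      have := Nat.eq_of_mul_eq_mul_left (by positivity) h6
      have ht : t = 4 := by omega
      subst ht
      left; rw [h]
    · rw [h] at hc
      have h6 : ((t + 1) * (t + 2)) * 6 = ((t + 1) * (t + 2)) * t := by nlinarith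
      have := Nat.eq_of_mul_eq_mul_left (by positivity) h6
      have ht : t = 6 := by omega
      subst ht
      right; rw [h]
  · have hm : m ≠ 0 := by
      rintro rfl
      simp at hpm
      omega
    have hF' : Fintype.card F = t := by rw [hF]; omega
    obtain ⟨s, rfl⟩ : ∃ s, t = s + 1 := ⟨t - 1, by omega⟩
    have hs : Odd s := by
      have h2 : 2 ∣ s + 1 := by
        have : s + 1 = 2 ^ m := by omega
        rw [this]
        exact dvd_pow_self 2 hm
      rcases h2 with ⟨k, hk⟩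
      exact ⟨k - 1, by omega⟩
    have hc := psl_card_even s (by omega) hs hF'
    rw [← Nat.card_congr e.toEquiv] at hc
    rcases h with h | h
    · rw [h] at hc
      have h6 : ((s + 2) * (s + 1)) * 3 = ((s + 2) * (s + 1)) * s := by nlinarith
      have := Nat.eq_of_mul_eq_mul_left (by positivity) h6
      have ht : s = 3 := by omega
      subst ht
      left; rw [h]
    · rw [h] at hc
      exfalso
      have h6 : (s + 2) * (3 * (s + 3)) = (s + 2) * ((s + 1) * s) := by nlinarith
      have h7 := Nat.eq_of_mul_eq_mul_left (by positivity) h6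
      have hs5 : s ≤ 5 := by nlinarith
      interval_cases s <;> omega

end Cfsg.Agent.Lib.Helper30.S4501.C8
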