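import Mathlib

set_option autoImplicit false

namespace Cfsg.Agent.Lib.Helper58.SAF

/-- a finite field of order `p ^ n` has characteristic `p` -/
theorem charP_of_card (p n : ℕ) [Fact p.Prime] (F : Type) [Field F] [Fintype F]
    (hF : Nat.card F = p ^ n) : CharP F p := by
  have hp : p.Prime := Fact.out
  obtain ⟨r, hr⟩ := CharP.exists F
  have hrp : r.Prime := CharP.char_is_prime F r
  obtain ⟨k, -, hk⟩ := FiniteField.card F r
  rw [Nat.card_eq_fintype_card] at hF
  have hn : n ≠ 0 := by
    intro h0
    rw [h0, pow_zero] at hF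
    have := Fintype.one_lt_card (α := F)
    omega
  have h1 : p ∣ r ^ (k : ℕ) := by
    rw [← hk, hF]
    exact dvd_pow_self p hn
  have h2 : p ∣ r := hp.dvd_of_dvd_pow h1
  have h3 : p = r := (Nat.prime_dvd_prime_iff_eq hp hrp).1 h2
  rw [h3]
  exact hr

theorem card_ringAut (p n : ℕ) [Fact p.Prime] (F : Type) [Field F] [Fintype F]
    (hF : Nat.card F = p ^ n) : Nat.card (F ≃+* F) = n := by
  classical
  have hp : p.Prime := Fact.out
  have hch : CharP F p := charP_of_card p n F hF
  let alg : Algebra (ZMod p) F := ZMod.algebra F p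
  have hcomm : ∀ (σ : F ≃+* F) (r : ZMod p),
      σ (algebraMap (ZMod p) F r) = algebraMap (ZMod p) F r := by
    intro σ r
    have h1 : (σ : F →+* F).comp (algebraMap (ZMod p) F) = algebraMap (ZMod p) F :=
      Subsingleton.elim _ _
    exact congrArg (fun f : ZMod p →+* F => f r) h1
  let φ : (F ≃+* F) ≃ (F ≃ₐ[ZMod p] F) :=
    { toFun := fun σ => AlgEquiv.ofRingEquiv (f := σ) (hcomm σ)
      invFun := fun τ => τ.toRingEquiv
      left_inv := by
        intro σ
        ext x
        rfl
      right_inv := by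
        intro τ
        ext x
        rfl }
  rw [Nat.card_congr φ, IsGalois.card_aut_eq_finrank]
  have h1 : Nat.card F = Nat.card (ZMod p) ^ Module.finrank (ZMod p) F :=
    Module.natCard_eq_pow_finrank
  rw [hF, Nat.card_eq_fintype_card, ZMod.card] at h1
  exact (Nat.pow_right_injective hp.two_le h1).symm

end Cfsg.Agent.Lib.Helper58.SAF
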