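import Mathlib

set_option autoImplicit false

namespace Cfsg.Agent.Lib.Helper58.SAF

theorem two_transitive_dvd {V : Type*} [AddCommGroup V] [Module (ZMod 2) V] [Finite V]
    [Nontrivial V] (Γ : Subgroup (V ≃ₗ[ZMod 2] V))
    (htr : ∀ U U' : AddSubgroup V, Nat.card ↥U = Nat.card ↥U' → ∃ g ∈ Γ, ∀ u ∈ U, g u ∈ U') :
    Nat.card V - 1 ∣ Nat.card ↥Γ := by
  classical
  have h2 : ∀ v : V, 2 • v = 0 := fun v => ZModModule.char_nsmul_eq_zero 2 v
  have hcard : ∀ v : V, v ≠ 0 → Nat.card ↥(AddSubgroup.zmultiples v) = 2 := by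
    intro v hv
    rw [Nat.card_zmultiples]
    exact addOrderOf_eq_prime (h2 v) hv
  have htrans : ∀ v w : V, v ≠ 0 → w ≠ 0 → ∃ g ∈ Γ, g v = w := by
    intro v w hv hw
    obtain ⟨g, hg, hgv⟩ := htr (AddSubgroup.zmultiples v) (AddSubgroup.zmultiples w)
      ((hcard v hv).trans (hcard w hw).symm)
    refine ⟨g, hg, ?_⟩
    obtain ⟨k, hk⟩ := AddSubgroup.mem_zmultiples_iff.mp (hgv v (AddSubgroup.mem_zmultiples v))
    have hgv0 : g v ≠ 0 := by
      intro h0
      exact hv (g.injective (h0.trans (map_zero g).symm))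
    rcases Int.even_or_odd' k with ⟨m, rfl | rfl⟩
    · exfalso
      apply hgv0
      rw [← hk, mul_comm, mul_smul]
      have : (2 : ℤ) • w = 0 := by
        have := h2 w
        rw [← natCast_zsmul] at this
        exact_mod_cast this
      rw [this, smul_zero]
    · rw [← hk, add_smul, one_smul, mul_comm, mul_smul]
      have : (2 : ℤ) • w = 0 := by
        have := h2 w
        rw [← natCast_zsmul] at this
        exact_mod_cast this
      rw [this, smul_zero, zero_add]
  obtain ⟨v₀, hv₀⟩ := exists_ne (0 : V)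
  have horb : MulAction.orbit ↥Γ v₀ = ({0} : Set V)ᶜ := by
    ext w
    simp only [MulAction.mem_orbit_iff, Set.mem_compl_iff, Set.mem_singleton_iff]
    constructor
    · rintro ⟨g, rfl⟩ h0
      apply hv₀
      have : (g : V ≃ₗ[ZMod 2] V) v₀ = 0 := h0
      exact (g : V ≃ₗ[ZMod 2] V).injective (this.trans (map_zero _).symm)
    · intro hw
      obtain ⟨g, hg, hgv⟩ := htrans v₀ w hv₀ hw
      exact ⟨⟨g, hg⟩, hgv⟩
  have h1 : Nat.card (MulAction.orbit ↥Γ v₀) = Nat.card V - 1 := by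
    rw [horb, Nat.card_coe_set_eq]
    have := Set.ncard_add_ncard_compl ({0} : Set V)
    rw [Set.ncard_singleton] at this
    omega
  rw [← h1, Nat.card_congr (MulAction.orbitEquivQuotientStabilizer ↥Γ v₀)]
  exact ⟨_, Subgroup.card_eq_card_quotient_mul_card_subgroup _⟩

end Cfsg.Agent.Lib.Helper58.SAF
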