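import Mathlib
import Cfsg.Agent.Lib.Helper58.SAFAUT

set_option autoImplicit false

namespace Cfsg.Agent.Lib.Helper58.SAF

theorem exists_proper_subfield (p n : ℕ) [Fact p.Prime] (F : Type) [Field F] [Fintype F]
    (hF : Nat.card F = p ^ n) (hn2 : 2 ∣ n) (hn : 2 < n) :
    ∃ E : Subfield F, E ≠ ⊥ ∧ E ≠ ⊤ := by
  classical
  have hp : p.Prime := Fact.out
  have hch : CharP F p := charP_of_card p n F hF
  rw [Nat.card_eq_fintype_card] at hF
  obtain ⟨g, hg⟩ := IsCyclic.exists_generator (α := Fˣ)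
  have hog : orderOf g = p ^ n - 1 := by
    rw [orderOf_eq_card_of_forall_mem_zpowers hg, Nat.card_eq_fintype_card, Fintype.card_units,
      hF]
  have hp2 : 2 ≤ p := hp.two_le
  obtain ⟨k, rfl⟩ := hn2
  have hk : 2 ≤ k := by omega
  have hdvd : p ^ 2 - 1 ∣ p ^ (2 * k) - 1 := by
    have := Nat.sub_dvd_pow_sub_pow (p ^ 2) 1 k
    rwa [one_pow, ← pow_mul] at this
  have hlt : p ^ 2 < p ^ (2 * k) := Nat.pow_lt_pow_right (by omega) (by omega)
  have hp21 : 1 < p ^ 2 := Nat.one_lt_pow (by omega) (by omega)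
  let E : Subfield F := RingHom.eqLocusField (iterateFrobenius F p 2) (RingHom.id F)
  have hE : ∀ x : F, x ∈ E ↔ x ^ p ^ 2 = x := by
    intro x
    show iterateFrobenius F p 2 x = RingHom.id F x ↔ _
    rw [iterateFrobenius_def, RingHom.id_apply]
  let E₁ : Subfield F := RingHom.eqLocusField (frobenius F p) (RingHom.id F)
  have hE₁ : ∀ x : F, x ∈ E₁ ↔ x ^ p = x := by
    intro x
    show frobenius F p x = RingHom.id F x ↔ _
    rw [frobenius_def, RingHom.id_apply]
  refine ⟨E, ?_, ?_⟩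
  · intro hbot
    obtain ⟨m, hm⟩ := hdvd
    have hm0 : m ≠ 0 := by
      rintro rfl
      rw [mul_zero] at hm
      omega
    have hoh : orderOf (g ^ m) = p ^ 2 - 1 := by
      rw [orderOf_pow' g hm0, hog, hm, Nat.gcd_eq_right (dvd_mul_left m _),
        Nat.mul_div_cancel _ (Nat.pos_of_ne_zero hm0)]
    have hmem : ((g ^ m : Fˣ) : F) ∈ E := by
      rw [hE]
      have h1 : (g ^ m) ^ (p ^ 2 - 1) = 1 := by rw [← hoh]; exact pow_orderOf_eq_one _
      have h2 : (g ^ m) ^ (p ^ 2) = g ^ m := by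
        have e : p ^ 2 = (p ^ 2 - 1) + 1 := by omega
        rw [e, pow_succ, h1, one_mul]
      have h3 := congrArg (fun u : Fˣ => (u : F)) h2
      simpa using h3
    rw [hbot] at hmem
    have hmem1 : ((g ^ m : Fˣ) : F) ∈ E₁ := (bot_le : (⊥ : Subfield F) ≤ E₁) hmem
    rw [hE₁] at hmem1
    have h4 : (g ^ m) ^ (p - 1) = 1 := by
      apply Units.ext
      rw [Units.val_pow_eq_pow_val, Units.val_one]
      have hne : ((g ^ m : Fˣ) : F) ≠ 0 := Units.ne_zero _
      have e : ((g ^ m : Fˣ) : F) ^ (p - 1) * ((g ^ m : Fˣ) : F) = 1 * ((g ^ m : Fˣ) : F) := by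
        rw [← pow_succ, Nat.sub_add_cancel (by omega), hmem1, one_mul]
      exact mul_right_cancel₀ hne e
    have h5 := orderOf_dvd_of_pow_eq_one h4
    rw [hoh] at h5
    have h6 := Nat.le_of_dvd (by omega) h5
    have e : p * p = p ^ 2 := by ring
    have h7 : p * 2 ≤ p * p := Nat.mul_le_mul_left p hp2
    omega
  · intro htop
    have hmem : ((g : Fˣ) : F) ∈ E := by rw [htop]; exact Subfield.mem_top _
    rw [hE] at hmem
    have h4 : g ^ (p ^ 2 - 1) = 1 := by
      apply Units.ext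
      rw [Units.val_pow_eq_pow_val, Units.val_one]
      have hne : ((g : Fˣ) : F) ≠ 0 := Units.ne_zero _
      have e : ((g : Fˣ) : F) ^ (p ^ 2 - 1) * ((g : Fˣ) : F) = 1 * ((g : Fˣ) : F) := by
        rw [← pow_succ, Nat.sub_add_cancel (by omega), hmem, one_mul]
      exact mul_right_cancel₀ hne e
    have h5 := orderOf_dvd_of_pow_eq_one h4
    rw [hog] at h5
    have h6 := Nat.le_of_dvd (by omega) h5
    omega

end Cfsg.Agent.Lib.Helper58.SAF
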