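import Mathlib

set_option autoImplicit false

namespace Cfsg.Agent.Lib.Helper58.SAF

theorem exists_sigma_hom (p : ℕ) [Fact p.Prime] {V : Type*} [AddCommGroup V] [Module (ZMod p) V]
    [Nontrivial V] (F : Type) [Field F] (e : V ≃+ F) (Γ : Subgroup (V ≃ₗ[ZMod p] V))
    (hsl : ∀ g ∈ Γ, ∃ (a : F) (σ : F ≃+* F), ∀ v : V, e (g v) = a * σ (e v)) :
    ∃ τ : ↥Γ →* (F ≃+* F),
      ∀ g : ↥Γ, ∃ a : F, a ≠ 0 ∧ ∀ v : V, e ((g : V ≃ₗ[ZMod p] V) v) = a * τ g (e v) := by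
  classical
  have key : ∀ (g : V ≃ₗ[ZMod p] V) (a : F) (σ : F ≃+* F),
      (∀ v : V, e (g v) = a * σ (e v)) → a ≠ 0 := by
    intro g a σ h ha
    obtain ⟨x, y, hxy⟩ := exists_pair_ne V
    apply hxy
    apply g.injective
    apply e.injective
    rw [h x, h y, ha, zero_mul, zero_mul]
  have uniq : ∀ (g : V ≃ₗ[ZMod p] V) (a b : F) (σ σ' : F ≃+* F),
      (∀ v : V, e (g v) = a * σ (e v)) → (∀ v : V, e (g v) = b * σ' (e v)) → σ = σ' := by
    intro g a b σ σ' h h'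
    have hab : a = b := by
      have h1 := h (e.symm 1)
      have h2 := h' (e.symm 1)
      rw [AddEquiv.apply_symm_apply, map_one σ, mul_one] at h1
      rw [AddEquiv.apply_symm_apply, map_one σ', mul_one] at h2
      rw [← h1, ← h2]
    subst hab
    have ha := key g a σ h
    ext x
    have h1 := h (e.symm x)
    have h2 := h' (e.symm x)
    rw [AddEquiv.apply_symm_apply] at h1 h2
    exact mul_left_cancel₀ ha (h1.symm.trans h2)
  let τ : ↥Γ → (F ≃+* F) := fun g => Classical.choose (Classical.choose_spec (hsl g g.2))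
  let α : ↥Γ → F := fun g => Classical.choose (hsl g g.2)
  have hτ : ∀ g : ↥Γ, ∀ v : V, e ((g : V ≃ₗ[ZMod p] V) v) = α g * τ g (e v) :=
    fun g => Classical.choose_spec (Classical.choose_spec (hsl g g.2))
  refine ⟨⟨⟨τ, ?_⟩, ?_⟩, ?_⟩
  · apply uniq (1 : V ≃ₗ[ZMod p] V) (α 1) 1 (τ 1) 1
    · exact hτ 1
    · intro v; simp
  · intro g h
    apply uniq ((g : V ≃ₗ[ZMod p] V) * h) (α (g * h)) (α g * τ g (α h)) (τ (g * h)) (τ g * τ h)
    · exact hτ (g * h)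
    · intro v
      show e ((g : V ≃ₗ[ZMod p] V) ((h : V ≃ₗ[ZMod p] V) v)) = _
      rw [hτ g, hτ h, map_mul, mul_assoc]
      rfl
  · intro g
    exact ⟨α g, key g (α g) (τ g) (hτ g), hτ g⟩

end Cfsg.Agent.Lib.Helper58.SAF
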