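import Mathlib
import Cfsg.Agent.Lib.Helper88.SSolDefs

set_option autoImplicit false

namespace Cfsg.Agent.Lib.Helper58.SSolJ4

open Cfsg.Agent.Lib.Helper88.SSol Polynomial

/-- the linear recurrence `(a, b) ↦ (t a + b, a)` started at `(0, 1)` -/
def ab (q : ℕ) (t : ZMod q) : ℕ → ZMod q × ZMod q
  | 0 => (0, 1)
  | (k + 1) => (t * (ab q t k).1 + (ab q t k).2, (ab q t k).1)

theorem xMat_sq (q : ℕ) (t : ZMod q) : xMat q t * xMat q t = t • xMat q t + 1 := by
  unfold xMat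
  ext i j
  fin_cases i <;> fin_cases j <;> simp [Matrix.mul_apply, Fin.sum_univ_two]
  ring

theorem xMat_pow (q : ℕ) (t : ZMod q) (k : ℕ) :
    xMat q t ^ k
      = (ab q t k).1 • xMat q t + (ab q t k).2 • (1 : Matrix (Fin 2) (Fin 2) (ZMod q)) := by
  induction k with
  | zero => simp [ab]
  | succ k ih =>
    rw [pow_succ, ih, add_mul, smul_mul_assoc, xMat_sq, smul_mul_assoc, one_mul]
    simp only [ab]
    module

theorem field_pow {K : Type*} [Field K] {q : ℕ} [Algebra (ZMod q) K] (t : ZMod q) (z : K)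
    (hz : z * z = algebraMap (ZMod q) K t * z + 1) (k : ℕ) :
    z ^ k = algebraMap (ZMod q) K (ab q t k).1 * z + algebraMap (ZMod q) K (ab q t k).2 := by
  induction k with
  | zero => simp [ab]
  | succ k ih =>
    rw [pow_succ, ih]
    simp only [ab, map_add, map_mul]
    linear_combination (algebraMap (ZMod q) K (ab q t k).1) * hz

/-- Elements fixed by Frobenius lie in the prime field. -/
theorem exists_algebraMap_eq {K : Type*} [Field K] {q : ℕ} [Fact q.Prime] [Algebra (ZMod q) K]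
    (s : K) (hs : s ^ q = s) : ∃ t : ZMod q, algebraMap (ZMod q) K t = s := by
  classical
  have hq1 : 1 < q := (Fact.out : q.Prime).one_lt
  have hne : (X ^ q - X : K[X]) ≠ 0 := FiniteField.X_pow_card_sub_X_ne_zero K hq1
  have hdeg : (X ^ q - X : K[X]).natDegree = q := FiniteField.X_pow_card_sub_X_natDegree_eq K hq1
  have hinj : Function.Injective (algebraMap (ZMod q) K) := (algebraMap (ZMod q) K).injective
  have hsub : (Finset.univ.image (algebraMap (ZMod q) K)) ⊆ (X ^ q - X : K[X]).roots.toFinset := by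
    intro x hx
    obtain ⟨t, -, rfl⟩ := Finset.mem_image.mp hx
    rw [Multiset.mem_toFinset, mem_roots hne, IsRoot.def]
    simp only [eval_sub, eval_pow, eval_X]
    rw [← map_pow, ZMod.pow_card, sub_self]
  have hcard : (X ^ q - X : K[X]).roots.toFinset.card
      ≤ (Finset.univ.image (algebraMap (ZMod q) K)).card := by
    rw [Finset.card_image_of_injective _ hinj, Finset.card_univ, ZMod.card]
    calc (X ^ q - X : K[X]).roots.toFinset.card ≤ Multiset.card (X ^ q - X : K[X]).roots :=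
          Multiset.toFinset_card_le _
      _ ≤ (X ^ q - X : K[X]).natDegree := card_roots' _
      _ = q := hdeg
  have heq := Finset.eq_of_subset_of_card_le hsub hcard
  have hmem : s ∈ (X ^ q - X : K[X]).roots.toFinset := by
    rw [Multiset.mem_toFinset, mem_roots hne, IsRoot.def]
    simp only [eval_sub, eval_pow, eval_X]
    rw [hs, sub_self]
  rw [← heq] at hmem
  obtain ⟨t, -, ht⟩ := Finset.mem_image.mp hmem
  exact ⟨t, ht⟩

theorem exists_primeT (n : ℕ) (hn : 3 ≤ n) : ∃ (q : ℕ) (t : ZMod q), PrimeT n q t := by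
  obtain ⟨m, rfl⟩ : ∃ m, n = m + 3 := ⟨n - 3, by omega⟩
  have hM : 2 ≤ 2 ^ (m + 1) := by
    calc 2 = 2 ^ 1 := by norm_num
      _ ≤ 2 ^ (m + 1) := Nat.pow_le_pow_right (by norm_num) (by omega)
  have hN : 2 ^ (m + 3 - 1) = 2 * 2 ^ (m + 1) := by
    rw [show m + 3 - 1 = (m + 1) + 1 by omega, pow_succ, mul_comm]
  have hNN : 2 ^ (m + 3) = 4 * 2 ^ (m + 1) := by
    rw [show m + 3 = (m + 1) + 2 by omega, pow_add]; ring
  have : NeZero (2 ^ (m + 3)) := ⟨by positivity⟩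
  have hunit : IsUnit (((2 ^ (m + 3 - 1) - 1 : ℕ)) : ZMod (2 ^ (m + 3))) := by
    rw [ZMod.isUnit_iff_coprime]
    apply Nat.Coprime.pow_right
    rw [Nat.coprime_comm, Nat.Prime.coprime_iff_not_dvd Nat.prime_two, hN]
    omega
  obtain ⟨q, hq3, hqp, hqmod⟩ := Nat.forall_exists_prime_gt_and_eq_mod hunit 3
  have hmod : q % 2 ^ (m + 3) = 2 ^ (m + 3 - 1) - 1 := by
    have h1 := (ZMod.natCast_eq_natCast_iff' q (2 ^ (m + 3 - 1) - 1) (2 ^ (m + 3))).mp hqmod
    rw [h1]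
    apply Nat.mod_eq_of_lt
    rw [hN, hNN]; omega
  have : Fact q.Prime := ⟨hqp⟩
  -- arithmetic: q + 1 = 2^(n-1) * (2j+1)
  obtain ⟨j, hj⟩ : ∃ j, q + 1 = 2 ^ (m + 3 - 1) * (2 * j + 1) := by
    refine ⟨q / 2 ^ (m + 3), ?_⟩
    have h1 := Nat.div_add_mod q (2 ^ (m + 3))
    rw [hmod, hN, hNN] at h1
    rw [hN, hNN]
    have h2 : 1 ≤ 2 * 2 ^ (m + 1) := by omega
    zify [h2] at h1 ⊢
    linarith
  have hqodd : Odd q := hqp.odd_of_ne_two (by omega)
  -- 2^n ∣ q^2 - 1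
  have hdvd : 2 ^ (m + 3) ∣ q ^ 2 - 1 := by
    have h1 : (q : ℤ) = 2 ^ (m + 3 - 1) * (2 * j + 1) - 1 := by
      have := congrArg (Nat.cast : ℕ → ℤ) hj
      push_cast at this
      linarith
    have h2 : ((q ^ 2 - 1 : ℕ) : ℤ) = (q : ℤ) ^ 2 - 1 := by
      have : 1 ≤ q ^ 2 := Nat.one_le_pow _ _ hqp.pos
      push_cast [Nat.cast_sub this]; ring
    rw [← Int.natCast_dvd_natCast, h2, h1]
    have h3 : ((2 ^ (m + 3 - 1) : ℕ) : ℤ) = 2 * 2 ^ (m + 1) := by rw [hN]; push_cast; ring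
    have h4 : ((2 ^ (m + 3) : ℕ) : ℤ) = 4 * 2 ^ (m + 1) := by rw [hNN]; push_cast; ring
    push_cast at h3 h4 ⊢
    rw [h3, h4]
    refine ⟨(2 * j + 1) * (2 ^ (m + 1) * (2 * j + 1) - 1), by ring⟩
  -- the field with q^2 elements
  have hcardK : Nat.card (GaloisField q 2) = q ^ 2 := GaloisField.card q 2 (by norm_num)
  haveI : Fintype (GaloisField q 2) := Fintype.ofFinite _
  have hcardK' : Fintype.card (GaloisField q 2) = q ^ 2 := by
    rw [← Nat.card_eq_fintype_card, hcardK]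
  have hcardU : Nat.card (GaloisField q 2)ˣ = q ^ 2 - 1 := by
    rw [Nat.card_units, hcardK]
  obtain ⟨g, hg⟩ := IsCyclic.exists_ofOrder_eq_natCard (α := (GaloisField q 2)ˣ)
  rw [hcardU] at hg
  have hg0 : orderOf g ≠ 0 := by
    rw [hg]
    have : 2 ≤ q ^ 2 := by
      calc 2 ≤ q := hqp.two_le
        _ ≤ q ^ 2 := Nat.le_self_pow (by norm_num) q
    omega
  have hu : orderOf (g ^ (orderOf g / 2 ^ (m + 3))) = 2 ^ (m + 3) :=
    orderOf_pow_orderOf_div hg0 (hg ▸ hdvd)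
  set u : (GaloisField q 2)ˣ := g ^ (orderOf g / 2 ^ (m + 3)) with hudef
  set ξ : GaloisField q 2 := (u : GaloisField q 2) with hξdef
  have hξord : orderOf ξ = 2 ^ (m + 3) := by rw [hξdef, orderOf_units, hu]
  have hξ0 : ξ ≠ 0 := u.ne_zero
  -- ξ^(2^(n-1)) = -1
  have hξN : ξ ^ 2 ^ (m + 3 - 1) = -1 := by
    have h1 : ξ ^ 2 ^ (m + 3 - 1) * ξ ^ 2 ^ (m + 3 - 1) = 1 := by
      rw [← pow_add, ← two_mul, hN, ← mul_assoc, show 2 * 2 = 4 by norm_num, ← hNN, ← hξord,
        pow_orderOf_eq_one]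
    rcases mul_self_eq_one_iff.mp h1 with h | h
    · exfalso
      have h2 := orderOf_dvd_of_pow_eq_one h
      rw [hξord] at h2
      have h3 := Nat.le_of_dvd (by positivity) h2
      rw [hN, hNN] at h3
      omega
    · exact h
  have hξq1 : ξ ^ (q + 1) = -1 := by
    rw [hj, pow_mul, hξN]
    exact Odd.neg_one_pow ⟨j, rfl⟩
  have hξη : ξ * ξ ^ q = -1 := by rw [← pow_succ', hξq1]
  have hηq : (ξ ^ q) ^ q = ξ := by
    rw [← pow_mul, ← sq, ← hcardK', FiniteField.pow_card]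
  have hs : (ξ + ξ ^ q) ^ q = ξ + ξ ^ q := by
    rw [add_pow_char, hηq, add_comm]
  obtain ⟨t, ht⟩ := exists_algebraMap_eq (ξ + ξ ^ q) hs
  have hzξ : ξ * ξ = algebraMap (ZMod q) (GaloisField q 2) t * ξ + 1 := by
    rw [ht]; linear_combination (-1 : GaloisField q 2) * hξη
  have hzη : ξ ^ q * ξ ^ q = algebraMap (ZMod q) (GaloisField q 2) t * ξ ^ q + 1 := by
    rw [ht]; linear_combination (-1 : GaloisField q 2) * hξη
  have h1 := field_pow t ξ hzξ (2 ^ (m + 3 - 1))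
  have h2 := field_pow t (ξ ^ q) hzη (2 ^ (m + 3 - 1))
  rw [hξN] at h1
  have hηN : (ξ ^ q) ^ 2 ^ (m + 3 - 1) = -1 := by
    rw [← pow_mul, mul_comm, pow_mul, hξN]
    exact hqodd.neg_one_pow
  rw [hηN] at h2
  have hne : ξ ≠ ξ ^ q := by
    intro h
    rw [← h] at hξη
    have h4 : ξ ^ 4 = 1 := by
      calc ξ ^ 4 = (ξ * ξ) * (ξ * ξ) := by ring
        _ = 1 := by rw [hξη]; ring
    have h5 := orderOf_dvd_of_pow_eq_one h4
    rw [hξord] at h5
    have h6 := Nat.le_of_dvd (by norm_num) h5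
    rw [hNN] at h6
    omega
  have ha : algebraMap (ZMod q) (GaloisField q 2) (ab q t (2 ^ (m + 3 - 1))).1 = 0 := by
    have h3 : algebraMap (ZMod q) (GaloisField q 2) (ab q t (2 ^ (m + 3 - 1))).1 * (ξ - ξ ^ q)
        = 0 := by linear_combination h2 - h1
    rcases mul_eq_zero.mp h3 with h | h
    · exact h
    · exact absurd (sub_eq_zero.mp h) hne
  have hinj : Function.Injective (algebraMap (ZMod q) (GaloisField q 2)) :=
    (algebraMap (ZMod q) (GaloisField q 2)).injective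
  have ha' : (ab q t (2 ^ (m + 3 - 1))).1 = 0 := hinj (by rw [ha, map_zero])
  have hb' : (ab q t (2 ^ (m + 3 - 1))).2 = -1 := by
    apply hinj
    rw [ha, zero_mul, zero_add] at h1
    rw [← h1, map_neg, map_one]
  refine ⟨q, t, hqp, hmod, ?_⟩
  rw [xMat_pow, ha', hb']
  simp

end Cfsg.Agent.Lib.Helper58.SSolJ4
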